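import Mathlib
import Cfsg.Agent.S0040
import Cfsg.Agent.H220.SpecBasic
import Cfsg.Agent.H220.BinOctHom
import Cfsg.Agent.H220.ConjRep

/-!
# Critical groups with a self-centralizing normal 13-subgroup
-/

set_option autoImplicit false

namespace Cfsg.Agent.H220.Spec

open Equiv
open scoped Pointwise

variable {G : Type*} [Group G] [Finite G]

theorem caseA (hΩ : ∀ g : G, orderOf g ∈ Om) (hex : ∀ n ∈ Om, ∃ g : G, orderOf g = n)
    (hcrit : ∀ S : Subgroup G, (∀ n ∈ Om, ∃ s ∈ S, orderOf s = n) → S = ⊤)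
    (M : Subgroup G) [M.Normal] (hM : IsPGroup 13 M)
    (hCM : Subgroup.centralizer (M : Set G) ≤ M) :
    ∃ (K H : Subgroup G), K.Normal ∧ IsMulCommutative K ∧ (∀ x ∈ K, x ^ 13 = 1) ∧
      Nat.card K = 13 ^ 4 ∧
        K ⊓ H = ⊥ ∧ K ⊔ H = ⊤ ∧ (∀ h ∈ H, h ≠ 1 → ∀ x ∈ K, h * x * h⁻¹ = x → x = 1) ∧
        ∃ (Z : Subgroup ↥H) (_ : Z.Normal), Nat.card Z = 2 ∧
          (∀ Z' : Subgroup ↥H, Nat.card Z' = 2 → Z' = Z) ∧
          Nonempty (↥H ⧸ Z ≃* Equiv.Perm (Fin 4)) := by
  classical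
  have : Fact (Nat.Prime 13) := ⟨by norm_num⟩
  have : Fact (Nat.Prime 3) := ⟨by norm_num⟩
  have : Fact (Nat.Prime 2) := ⟨by norm_num⟩
  obtain ⟨t, ht⟩ := hex 2 (by simp)
  have ht1 : t ≠ 1 := by
    rintro rfl
    rw [orderOf_one] at ht
    exact absurd ht (by norm_num)
  have htt : t * t = 1 := by rw [← pow_two, ← ht]; exact pow_orderOf_eq_one t
  have htinv : t⁻¹ = t := inv_eq_of_mul_eq_one_right htt
  have hMbot : M ≠ ⊥ := by
    rintro rfl
    apply ht1
    have h1 : t ∈ Subgroup.centralizer ((⊥ : Subgroup G) : Set G) := by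
      rw [Subgroup.mem_centralizer_iff]
      intro h hh
      rw [SetLike.mem_coe, Subgroup.mem_bot] at hh
      rw [hh, one_mul, mul_one]
    exact Subgroup.mem_bot.mp (hCM h1)
  have h13 : ∀ x ∈ M, x ^ 13 = 1 := fun x hx => pow_eq_one_of_pGroup hΩ hM hx
  -- `13'`-elements act without fixed points
  have hfree : ∀ g : G, ¬ 13 ∣ orderOf g → g ≠ 1 → ∀ m ∈ M, g * m * g⁻¹ = m → m = 1 := by
    intro g hg hg1 m hm hgm
    by_contra hm1
    apply hg1
    apply eq_one_of_comm hΩ (orderOf_eq_of_pGroup hΩ hM hm hm1) ?_ hg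
    calc m * g = (g * m * g⁻¹) * g := by rw [hgm]
      _ = g * m := by group
  obtain ⟨hinv, hab⟩ := inverts htt (hfree t (by rw [ht]; norm_num) ht1)
  -- all elements of order 13 are in `M`
  have hmem : ∀ x : G, orderOf x = 13 → x ∈ M := by
    intro x hx
    by_contra hxM
    have hf : t * x * t⁻¹ * x⁻¹ ∈ M := by
      apply hCM
      rw [Subgroup.mem_centralizer_iff]
      intro m hm
      have h1 : x⁻¹ * m * x ∈ M := by
        have := ‹M.Normal›.conj_mem m hm x⁻¹
        rwa [inv_inv] at this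
      have h2 : t⁻¹ * (x⁻¹ * m * x) * t = x⁻¹ * m⁻¹ * x := by
        have h3 := hinv _ h1
        rw [htinv] at h3 ⊢
        rw [h3]; group
      have h3 : t * (m⁻¹) * t⁻¹ = m := by
        rw [hinv _ (inv_mem hm), inv_inv]
      have h4 : (t * x * t⁻¹ * x⁻¹) * m * (t * x * t⁻¹ * x⁻¹)⁻¹ = m := by
        calc (t * x * t⁻¹ * x⁻¹) * m * (t * x * t⁻¹ * x⁻¹)⁻¹ =
            t * x * (t⁻¹ * (x⁻¹ * m * x) * t) * x⁻¹ * t⁻¹ := by group
          _ = t * x * (x⁻¹ * m⁻¹ * x) * x⁻¹ * t⁻¹ := by rw [h2]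
          _ = t * m⁻¹ * t⁻¹ := by group
          _ = m := h3
      calc m * (t * x * t⁻¹ * x⁻¹) =
          ((t * x * t⁻¹ * x⁻¹) * m * (t * x * t⁻¹ * x⁻¹)⁻¹) * (t * x * t⁻¹ * x⁻¹) := by rw [h4]
        _ = (t * x * t⁻¹ * x⁻¹) * m := by group
    set f := t * x * t⁻¹ * x⁻¹ with hfdef
    have htx : t * x * t⁻¹ = f * x := by rw [hfdef]; group
    have hty : t * (f ^ 7 * x) * t⁻¹ = f ^ 7 * x := by
      have h1 : t * f ^ 7 * t⁻¹ = (f ^ 7)⁻¹ := hinv _ (pow_mem hf 7)
      calc t * (f ^ 7 * x) * t⁻¹ = (t * f ^ 7 * t⁻¹) * (t * x * t⁻¹) := by group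
        _ = (f ^ 7)⁻¹ * (f * x) := by rw [h1, htx]
        _ = (f ^ 13)⁻¹ * (f ^ 7 * x) := by group
        _ = f ^ 7 * x := by rw [h13 f hf, inv_one, one_mul]
    have hyM : f ^ 7 * x ∉ M := by
      intro h
      apply hxM
      have := mul_mem (inv_mem (pow_mem hf 7)) h
      rwa [inv_mul_cancel_left] at this
    have hy13 : 13 ∣ orderOf (f ^ 7 * x) := by
      have h1 : QuotientGroup.mk' M (f ^ 7 * x) = QuotientGroup.mk' M x := by
        rw [map_mul, show QuotientGroup.mk' M (f ^ 7) = 1 from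
          (QuotientGroup.eq_one_iff _).mpr (pow_mem hf 7), one_mul]
      have h2 : orderOf (QuotientGroup.mk' M x) = 13 := by
        apply orderOf_eq_prime
        · rw [← map_pow, ← hx, pow_orderOf_eq_one, map_one]
        · intro h; exact hxM ((QuotientGroup.eq_one_iff x).mp h)
      rw [← h2, ← h1]
      exact orderOf_map_dvd _ _
    have hyord : orderOf (f ^ 7 * x) = 13 := by
      have := mem_Om.mp (hΩ (f ^ 7 * x))
      omega
    apply ht1
    apply eq_one_of_comm hΩ hyord ?_ (by rw [ht]; norm_num)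
    calc f ^ 7 * x * t = (t * (f ^ 7 * x) * t⁻¹) * t := by rw [hty]
      _ = t * (f ^ 7 * x) := by group
  have hmem' : ∀ x : G, 13 ∣ orderOf x → x ∈ M := by
    intro x hx
    apply hmem
    have := mem_Om.mp (hΩ x)
    omega
  -- the complement
  have hidx : ¬ 13 ∣ M.index := by
    intro h
    rw [Subgroup.index_eq_card] at h
    obtain ⟨g, hg⟩ := exists_prime_orderOf_dvd_card' (G := G ⧸ M) 13 h
    obtain ⟨x, rfl⟩ := QuotientGroup.mk'_surjective M g
    have h1 : x ∈ M := hmem' x (by rw [← hg]; exact orderOf_map_dvd _ _)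
    have h2 : QuotientGroup.mk' M x = 1 := (QuotientGroup.eq_one_iff x).mpr h1
    rw [h2, orderOf_one] at hg
    exact absurd hg (by norm_num)
  obtain ⟨n, hn⟩ := IsPGroup.iff_card.mp hM
  have hcop : Nat.Coprime (Nat.card M) M.index := by
    rw [hn]
    exact Nat.Coprime.pow_left _ ((Nat.Prime.coprime_iff_not_dvd (by norm_num)).mpr hidx)
  obtain ⟨H, hH⟩ := Subgroup.exists_right_complement'_of_coprime hcop
  have hinf : ∀ g, g ∈ M → g ∈ H → g = 1 := by
    intro g hg1 hg2
    have h1 := hH.disjoint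
    exact (Subgroup.disjoint_def.mp h1) hg1 hg2
  have hMH : ∀ g : G, ∃ m ∈ M, ∃ h ∈ H, g = m * h := by
    intro g
    obtain ⟨⟨m, h⟩, hmh⟩ := hH.2 g
    exact ⟨m, m.2, h, h.2, hmh.symm⟩
  have hH13 : ∀ h ∈ H, ¬ 13 ∣ orderOf h := by
    intro h hh hd
    have h1 := hinf h (hmem' h hd) hh
    rw [h1, orderOf_one] at hd
    exact absurd hd (by norm_num)
  have hfpf : ∀ h ∈ H, h ≠ 1 → ∀ x ∈ M, h * x * h⁻¹ = x → x = 1 :=
    fun h hh hh1 => hfree h (hH13 h hh) hh1
  have hHΩ : ∀ h : H, orderOf h ∈ Om := fun h => by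
    rw [← Subgroup.orderOf_coe]; exact hΩ h
  have hHex : ∀ n ∈ Om, n ≠ 13 → ∃ h : H, orderOf h = n := by
    intro n hn hn13
    obtain ⟨g, hg⟩ := hex n hn
    have h1 : ¬ 13 ∣ orderOf g := by
      rw [hg]
      have := mem_Om.mp hn
      omega
    obtain ⟨h, hh, hh2⟩ := exists_orderOf_complement hM hMH hinf g h1
    refine ⟨⟨h, hh⟩, ?_⟩
    rw [Subgroup.orderOf_mk, hh2, hg]
  -- the unique involution
  obtain ⟨z, hz⟩ := hHex 2 (by simp) (by norm_num)
  have hz1 : z ≠ 1 := by
    rintro rfl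
    rw [orderOf_one] at hz
    exact absurd hz (by norm_num)
  have hzz : z * z = 1 := by rw [← pow_two, ← hz]; exact pow_orderOf_eq_one z
  have hsqinv : ∀ g : H, g * g = 1 → g ≠ 1 → ∀ m ∈ M, (g : G) * m * (g : G)⁻¹ = m⁻¹ := by
    intro g hg hg1
    refine (inverts (M := M) (t := (g : G)) (congrArg Subtype.val hg) ?_).1
    exact hfpf g g.2 (fun h => hg1 (Subtype.ext h))
  have huniq : ∀ g : H, g * g = 1 → g = 1 ∨ g = z := by
    intro g hg
    by_cases hg1 : g = 1
    · exact Or.inl hg1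
    right
    have h1 : ((g * z : H) : G) ∈ M := by
      apply hCM
      rw [Subgroup.mem_centralizer_iff]
      intro m hm
      have h2 := hsqinv z hzz hz1 m hm
      have h3 := hsqinv g hg hg1 _ (inv_mem hm)
      rw [inv_inv] at h3
      have h4 : (g : G) * z * m * ((g : G) * z)⁻¹ = m := by
        calc (g : G) * z * m * ((g : G) * z)⁻¹ = g * (z * m * (z : G)⁻¹) * (g : G)⁻¹ := by group
          _ = m := by rw [h2, h3]
      calc m * ((g * z : H) : G) = ((g : G) * z * m * ((g : G) * z)⁻¹) * ((g : G) * z) := by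
            rw [h4]; rfl
        _ = ((g * z : H) : G) * m := by
            rw [Subgroup.coe_mul]; group
    have h2 : g * z = 1 := Subtype.ext (hinf _ h1 (g * z).2)
    calc g = (g * z) * z := by rw [mul_assoc, hzz, mul_one]
      _ = z := by rw [h2, one_mul]
  -- the order of `H`
  have hR3 : ∀ R : Sylow 3 H, Nat.card R = 3 := by
    intro R
    have h1 := Cfsg.Agent.S0040.result M H hH hMbot (by
      intro h hh hh1
      rw [eq_bot_iff]
      rintro m ⟨hm, hm2⟩
      rw [Subgroup.mem_bot]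
      apply hfpf h hh hh1 m hm
      have hm3 : m * h = h * m := Subgroup.mem_centralizer_singleton_iff.mp hm2
      rw [← hm3]; group) 3 R
    obtain ⟨k, hk⟩ := IsPGroup.iff_card.mp R.isPGroup'
    obtain ⟨r, hr⟩ := hHex 3 (by simp) (by norm_num)
    have hk0 : k ≠ 0 := by
      rintro rfl
      have h2 : 3 ∣ Nat.card H := by rw [← hr]; exact orderOf_dvd_natCard r
      have h3 := R.dvd_card_of_dvd_card h2
      rw [hk] at h3
      exact absurd h3 (by norm_num)
    rcases h1 with hcyc | ⟨n, ⟨e⟩⟩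
    · obtain ⟨g, hg⟩ := hcyc.exists_ofOrder_eq_natCard
      have h2 := mem_Om.mp (hHΩ g)
      rw [Subgroup.orderOf_coe, hg, hk] at h2
      have h3 : 3 ∣ 3 ^ k := dvd_pow_self 3 hk0
      have h4 : ¬ 2 ∣ 3 ^ k := by
        intro h
        exact absurd (Nat.prime_two.dvd_of_dvd_pow h) (by norm_num)
      rw [hk]
      omega
    · exfalso
      have h2 : 2 ∣ Nat.card R := by
        rw [Nat.card_congr e.toEquiv, Nat.card_eq_fintype_card, QuaternionGroup.card]
        exact ⟨2 * 2 ^ n, by ring⟩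
      rw [hk] at h2
      exact absurd (Nat.prime_two.dvd_of_dvd_pow h2) (by norm_num)
  obtain ⟨a, ha⟩ : ∃ a, Nat.card H = 2 ^ a * 3 := by
    obtain ⟨R⟩ : Nonempty (Sylow 3 H) := inferInstance
    have h1 : (R : Subgroup H).index * Nat.card R = Nat.card H := Subgroup.index_mul_card _
    have h2 : (R : Subgroup H).index ≠ 0 := Subgroup.FiniteIndex.index_ne_zero
    have h5 : ∀ d : ℕ, d.Prime → d ∣ (R : Subgroup H).index → d = 2 := by
      intro d hd hd2
      have h3 : d ∣ Nat.card H := by rw [← h1]; exact Dvd.dvd.mul_right hd2 _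
      have := Fact.mk hd
      obtain ⟨g, hg⟩ := exists_prime_orderOf_dvd_card' (G := H) d h3
      have h4 := mem_Om.mp (hHΩ g)
      rw [hg] at h4
      have h5 : d ≠ 13 := by
        rintro rfl
        exact hH13 g g.2 (by rw [Subgroup.orderOf_coe, hg])
      have h6 : d ≠ 3 := by
        rintro rfl
        exact R.not_dvd_index hd2
      rcases h4 with h | h | h | h | h | h | h
      · rw [h] at hd; exact absurd hd (by norm_num)
      · exact h
      · exact absurd h h6
      · rw [h] at hd; exact absurd hd (by norm_num)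
      · rw [h] at hd; exact absurd hd (by norm_num)
      · rw [h] at hd; exact absurd hd (by norm_num)
      · exact absurd h h5
    have h6 := Nat.eq_prime_pow_of_unique_prime_dvd h2 (fun {d} hd hd2 => h5 d hd hd2)
    exact ⟨_, by rw [← h1, hR3 R, h6]⟩
  obtain ⟨φ, hφ, hker⟩ := BinOct.exists_hom z hz1 hzz huniq ha (hHex 8 (by simp) (by norm_num))
    (by
      intro g hg
      have := mem_Om.mp (hHΩ g)
      omega)
    (by
      intro g hg
      have := mem_Om.mp (hHΩ g)
      omega)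
  have hcomm : IsMulCommutative M := ⟨⟨fun a b => Subtype.ext (hab a a.2 b b.2)⟩⟩
  -- irreducibility
  have hirr : ∀ S : Subgroup G, S ≤ M → (∀ h ∈ H, ∀ s ∈ S, h * s * h⁻¹ ∈ S) → S = ⊥ ∨ S = M := by
    intro S hSM hSH
    by_cases hS : S = ⊥
    · exact Or.inl hS
    right
    have hHS : H ≤ Subgroup.normalizer (S : Set G) := by
      intro h hh
      rw [Subgroup.mem_normalizer_iff]
      intro s
      constructor
      · exact fun hs => hSH h hh s hs
      · intro hs
        have := hSH h⁻¹ (inv_mem hh) _ hs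
        have h2 : h⁻¹ * (h * s * h⁻¹) * h⁻¹⁻¹ = s := by group
        rwa [h2] at this
    have htop : S ⊔ H = ⊤ := by
      apply hcrit
      intro n hn
      by_cases hn13 : n = 13
      · obtain ⟨s, hs⟩ := Subgroup.ne_bot_iff_exists_ne_one.mp hS
        refine ⟨s, Subgroup.mem_sup_left s.2, ?_⟩
        rw [hn13]
        exact orderOf_eq_of_pGroup hΩ hM (hSM s.2) (fun h => hs (Subtype.ext h))
      · obtain ⟨h, hh⟩ := hHex n hn hn13
        exact ⟨h, Subgroup.mem_sup_right h.2, by rw [Subgroup.orderOf_coe, hh]⟩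
    apply le_antisymm hSM
    intro m hm
    have h1 : m ∈ S ⊔ H := by rw [htop]; trivial
    have h2 : m ∈ (S : Set G) * (H : Set G) := by
      rw [← Subgroup.coe_mul_of_right_le_normalizer_left S H hHS]
      exact h1
    obtain ⟨s, hs, h, hh, hsh⟩ := h2
    have h3 : h = 1 := by
      apply hinf h _ hh
      have : h = s⁻¹ * m := by rw [← hsh]; group
      rw [this]
      exact mul_mem (inv_mem (hSM hs)) hm
    rw [h3] at hsh
    rw [← hsh]
    simpa using hs
  have hcard := ConjRep.card_eq M hMbot h13 H hfpf hirr z hz1 hzz (hsqinv z hzz hz1) huniq φ hφ hker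
  have hkz : φ.ker = Subgroup.zpowers z := by
    ext g
    rw [MonoidHom.mem_ker, hker]
    constructor
    · rintro (rfl | rfl)
      · exact one_mem _
      · exact Subgroup.mem_zpowers g
    · intro h
      apply huniq
      have h2 := Subgroup.orderOf_dvd_natCard _ h
      rw [Nat.card_zpowers, hz, orderOf_dvd_iff_pow_eq_one, pow_two] at h2
      exact h2
  have hkcard : Nat.card φ.ker = 2 := by rw [hkz, Nat.card_zpowers, hz]
  refine ⟨M, H, inferInstance, hcomm, h13, hcard, hH.disjoint.eq_bot, hH.sup_eq_top, hfpf,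
    φ.ker, inferInstance, hkcard, ?_,
    ⟨QuotientGroup.quotientKerEquivOfSurjective φ hφ⟩⟩
  intro Z' hZ'
  obtain ⟨g, hg⟩ := exists_prime_orderOf_dvd_card' (G := Z') 2 (dvd_of_eq hZ'.symm)
  rw [← Subgroup.orderOf_coe] at hg
  have hg1 : (g : H) * g = 1 := by rw [← pow_two, ← hg]; exact pow_orderOf_eq_one _
  have hgz : (g : H) = z := by
    rcases huniq g hg1 with h | h
    · rw [h, orderOf_one] at hg
      exact absurd hg (by norm_num)
    · exact h
  rw [hkz]
  symm
  apply Subgroup.eq_of_le_of_card_ge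
  · rw [Subgroup.zpowers_le, ← hgz]; exact g.2
  · rw [Nat.card_zpowers, hz, hZ']

end Cfsg.Agent.H220.Spec
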