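import Mathlib
import Cfsg.Agent.H220.SpecBasic

/-!
# Element orders in `SL(3, 3)`
-/

set_option autoImplicit false

namespace Cfsg.Agent.H220.Spec

open Matrix

/-- An element of order 8. -/
def m8 : SpecialLinearGroup (Fin 3) (ZMod 3) := ⟨!![0, 1, 0; 1, 1, 0; 0, 0, 2], by decide⟩

/-- An element of order 6. -/
def m6 : SpecialLinearGroup (Fin 3) (ZMod 3) := ⟨!![2, 1, 0; 0, 2, 0; 0, 0, 1], by decide⟩

/-- An element of order 13. -/
def m13 : SpecialLinearGroup (Fin 3) (ZMod 3) := ⟨!![0, 0, 1; 1, 0, 1; 0, 1, 0], by decide⟩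

theorem m8_a : m8 ^ 2 ^ 2 ≠ 1 := by decide
theorem m8_b : m8 ^ 2 ^ (2 + 1) = 1 := by decide
theorem m6_a : m6 ^ 6 = 1 := by decide
theorem m6_b : m6 ^ 3 ≠ 1 := by decide
theorem m6_c : m6 ^ 2 ≠ 1 := by decide
theorem m13_a : m13 ^ 13 = 1 := by decide
theorem m13_b : m13 ≠ 1 := by decide

theorem orderOf_m8 : orderOf m8 = 8 := orderOf_eq_prime_pow (p := 2) m8_a m8_b

theorem orderOf_m13 : orderOf m13 = 13 :=
  have : Fact (Nat.Prime 13) := ⟨by norm_num⟩
  orderOf_eq_prime m13_a m13_b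

theorem orderOf_m6 : orderOf m6 = 6 := by
  apply orderOf_eq_of_pow_and_pow_div_prime (by norm_num) m6_a
  intro p hp hpd
  have h1 : p ≤ 6 := Nat.le_of_dvd (by norm_num) hpd
  interval_cases p
  · exact absurd hp (by norm_num)
  · exact absurd hp (by norm_num)
  · exact m6_b
  · exact m6_c
  · exact absurd hp (by norm_num)
  · exact absurd hpd (by norm_num)
  · exact absurd hp (by norm_num)

variable {F : Type} [Field F] [Fintype F]

theorem center_eq_bot (hF : Fintype.card F = 3) :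
    Subgroup.center (SpecialLinearGroup (Fin 3) F) = ⊥ := by
  classical
  rw [eq_bot_iff]
  intro A hA
  rw [Subgroup.mem_bot]
  have e := SpecialLinearGroup.center_equiv_rootsOfUnity (n := Fin 3) (R := F)
  have h1 : ∀ u : rootsOfUnity (max (Fintype.card (Fin 3)) 1) F, u = 1 := by
    rintro ⟨u, hu⟩
    rw [mem_rootsOfUnity] at hu
    have h2 : u ^ 3 = 1 := hu
    have h3 : u ^ 2 = 1 := by
      have h4 := pow_card_eq_one (G := Fˣ) (x := u)
      rw [Fintype.card_units, hF] at h4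
      exact h4
    apply Subtype.ext
    change u = 1
    calc u = u ^ 3 * (u ^ 2)⁻¹ := by group
      _ = 1 := by rw [h2, h3]; group
  have h2 : (⟨A, hA⟩ : Subgroup.center (SpecialLinearGroup (Fin 3) F)) = 1 := by
    apply e.injective
    rw [h1 (e _), h1 (e 1)]
  exact congrArg Subtype.val h2

/-- `PSL(3, 3) ≅ SL(3, 3)`. -/
theorem psl_equiv (hF : Fintype.card F = 3) :
    Nonempty (ProjectiveSpecialLinearGroup (Fin 3) F ≃* SpecialLinearGroup (Fin 3) F) :=
  ⟨(QuotientGroup.quotientMulEquivOfEq (center_eq_bot hF)).trans QuotientGroup.quotientBot⟩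

theorem exists_orders (hF : Fintype.card F = 3) : ∀ n ∈ Om,
    ∃ g : SpecialLinearGroup (Fin 3) F, orderOf g = n := by
  classical
  have h0 : ∀ n : ℕ, (∃ g : SpecialLinearGroup (Fin 3) (ZMod 3), orderOf g = n) →
      ∃ g : SpecialLinearGroup (Fin 3) F, orderOf g = n := by
    rintro n ⟨g, hg⟩
    let e : ZMod 3 ≃+* F := ZMod.ringEquivOfPrime F Nat.prime_three hF
    refine ⟨SpecialLinearGroup.map (e : ZMod 3 →+* F) g, ?_⟩
    rw [← hg]
    apply orderOf_injective
    intro a b hab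
    apply Subtype.ext
    apply Matrix.ext
    intro i j
    have h1 := congrArg (fun M : SpecialLinearGroup (Fin 3) F => (M : Matrix _ _ F) i j) hab
    exact e.injective h1
  have h8 : ∀ k : ℕ, k ∣ 8 → k ≠ 0 → ∃ g : SpecialLinearGroup (Fin 3) (ZMod 3),
      orderOf g = 8 / k := by
    intro k hk hk0
    exact ⟨m8 ^ k, by rw [orderOf_pow_of_dvd hk0 (by rw [orderOf_m8]; exact hk), orderOf_m8]⟩
  intro n hn
  apply h0
  rcases mem_Om.mp hn with h | h | h | h | h | h | h <;> rw [h]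
  · exact h8 8 (by norm_num) (by norm_num)
  · exact h8 4 (by norm_num) (by norm_num)
  · exact ⟨m6 ^ 2, by rw [orderOf_pow_of_dvd (by norm_num) (by rw [orderOf_m6]; norm_num),
      orderOf_m6]⟩
  · exact h8 2 (by norm_num) (by norm_num)
  · exact ⟨m6, orderOf_m6⟩
  · exact ⟨m8, orderOf_m8⟩
  · exact ⟨m13, orderOf_m13⟩

end Cfsg.Agent.H220.Spec
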